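import Cfsg.Agent.H160.DP.Tv
import Cfsg.Agent.H170.HL.SpRow

/-!
# S4247, the family `PSp_2m(q)`, `m ≥ 3`, `q` odd

`psp_no_exact` : `PSp_2m(q)` is not a product `P H` with `P` in the normaliser of a Sylow `p`-subgroup and `H` a
`p'`-group (`p` the odd characteristic).
-/

set_option autoImplicit false

namespace Cfsg.Agent.H855.DP

open Module Subgroup Cfsg.Agent.H160.DP

section form

variable {F V : Type*} [Field F] [AddCommGroup V] [Module F V] {K : Type*} [Group K]
  {B : LinearMap.BilinForm F V}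

theorem skew (ha : ∀ v, B v v = 0) (u v : V) : B u v = - B v u := by
  have h1 := ha (u + v)
  simp only [map_add, LinearMap.add_apply, ha] at h1
  linear_combination h1

theorem refl (ha : ∀ v, B v v = 0) : B.IsRefl := by
  intro u v h
  rw [skew ha, h, neg_zero]

theorem mem_perp {c : Submodule F V} {v : V} : v ∈ B.orthogonal c ↔ ∀ x ∈ c, B x v = 0 := Iff.rfl

theorem mem_perp' (ha : ∀ v, B v v = 0) {c : Submodule F V} {v : V} :
    v ∈ B.orthogonal c ↔ ∀ x ∈ c, B v x = 0 := by
  rw [mem_perp]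
  exact forall₂_congr fun x _ => by rw [skew ha v x, neg_eq_zero]

/-- the map `v ↦ v + B(v, x) w + B(v, w) x` -/
def eM (B : LinearMap.BilinForm F V) (x w : V) : Module.End F V :=
  LinearMap.id + (B.flip x).smulRight w + (B.flip w).smulRight x

theorem eM_apply (x w v : V) : eM B x w v = v + B v x • w + B v w • x := rfl

theorem eM_iso (ha : ∀ v, B v v = 0) {x w : V} (hxw : B x w = 0) (u v : V) :
    B (eM B x w u) (eM B x w v) = B u v := by
  have hwx : B w x = 0 := by rw [skew ha, hxw, neg_zero]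
  simp only [eM_apply, map_add, LinearMap.add_apply, map_smul, LinearMap.smul_apply, smul_eq_mul, ha, hxw, hwx]
  rw [skew ha w v, skew ha x v]
  ring

/-- the transvection `v ↦ v + B(v, y) y` -/
def tM (B : LinearMap.BilinForm F V) (y : V) : Module.End F V := LinearMap.id + (B.flip y).smulRight y

theorem tM_apply (y v : V) : tM B y v = v + B v y • y := rfl

theorem tM_iso (ha : ∀ v, B v v = 0) {y : V} (u v : V) : B (tM B y u) (tM B y v) = B u v := by
  simp only [tM_apply, map_add, LinearMap.add_apply, map_smul, LinearMap.smul_apply, smul_eq_mul, ha]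
  rw [skew ha y v]
  ring

/-- a self-dual chain -/
structure SD (B : LinearMap.BilinForm F V) (C : ℕ → Submodule F V) : Prop where
  mono : Monotone C
  zero : C 0 = ⊥
  perp : ∀ j ≤ 7, C (7 - j) = B.orthogonal (C j)

variable {ρ : K →* (V ≃ₗ[F] V)} {C : ℕ → Submodule F V}

theorem eM_triv [Finite K] (ha : ∀ v, B v v = 0) (hC : SD B C)
    (hall : ∀ z : Module.End F V, (∀ u v, B (z u) (z v) = B u v) → ∃ g : K, ∀ v, ρ g v = z v)
    {j : ℕ} (hj : j ≤ 7) {y w : V} (hy : y ∈ C j) (hw : w ∈ C (7 - j)) :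
    ∃ g ∈ triv ρ C, ∀ v, ρ g v = v + B v y • w + B v w • y := by
  have hw' : ∀ x ∈ C j, B x w = 0 := by
    rw [hC.perp j hj] at hw
    exact hw
  obtain ⟨g, hg⟩ := hall (eM B y w) (eM_iso ha (hw' y hy))
  refine ⟨g, mem_triv (fun i => hC.mono (Nat.le_succ i)) (fun i v hv => ?_) hC.zero, hg⟩
  rw [hg, eM_apply, add_assoc, add_sub_cancel_left]
  apply (C i).add_mem
  · by_cases h : i + 1 ≤ 7 - j
    · have h1 : v ∈ B.orthogonal (C j) := by
        rw [← hC.perp j hj]
        exact hC.mono h hv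
      rw [(mem_perp' ha).mp h1 y hy, zero_smul]
      exact (C i).zero_mem
    · exact (C i).smul_mem _ (hC.mono (by omega) hw)
  · by_cases h : i + 1 ≤ j
    · rw [hw' v (hC.mono h hv), zero_smul]
      exact (C i).zero_mem
    · exact (C i).smul_mem _ (hC.mono (by omega) hy)

theorem tM_triv [Finite K] (ha : ∀ v, B v v = 0) (hC : SD B C)
    (hall : ∀ z : Module.End F V, (∀ u v, B (z u) (z v) = B u v) → ∃ g : K, ∀ v, ρ g v = z v)
    {j : ℕ} (hj : j ≤ 3) {y : V} (hy : y ∈ C j) :
    ∃ g ∈ triv ρ C, ∀ v, ρ g v = v + B v y • y := by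
  obtain ⟨g, hg⟩ := hall (tM B y) (tM_iso ha)
  refine ⟨g, mem_triv (fun i => hC.mono (Nat.le_succ i)) (fun i v hv => ?_) hC.zero, hg⟩
  rw [hg, tM_apply, add_sub_cancel_left]
  by_cases h : i + 1 ≤ 7 - j
  · have h1 : v ∈ B.orthogonal (C j) := by
      rw [← hC.perp j (by omega)]
      exact hC.mono h hv
    rw [(mem_perp' ha).mp h1 y hy, zero_smul]
    exact (C i).zero_mem
  · exact (C i).smul_mem _ (hC.mono (by omega) hy)

/-- the vectors moved into `c` are in `C j` -/
theorem mem_of_triv [Finite K] [FiniteDimensional F V] (ha : ∀ v, B v v = 0) (hnd : B.Nondegenerate) (hC : SD B C)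
    (hall : ∀ z : Module.End F V, (∀ u v, B (z u) (z v) = B u v) → ∃ g : K, ∀ v, ρ g v = z v)
    {j : ℕ} (hj : j ≤ 3) {c : Submodule F V} {y : V} (hy : y ∈ C j) (hyc : y ∉ c) {v : V}
    (hv : ∀ g ∈ triv ρ C, ρ g v - v ∈ c) : v ∈ C j := by
  by_contra hvj
  have hvy : B v y = 0 := by
    by_contra h0
    obtain ⟨g, hg, hg'⟩ := tM_triv (ρ := ρ) ha hC hall hj hy
    have h1 := hv g hg
    rw [hg', add_sub_cancel_left] at h1
    apply hyc
    have h2 := c.smul_mem (B v y)⁻¹ h1
    rwa [smul_smul, inv_mul_cancel₀ h0, one_smul] at h2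
  obtain ⟨w, hw, hvw⟩ : ∃ w ∈ C (7 - j), B v w ≠ 0 := by
    by_contra hcon
    push Not at hcon
    apply hvj
    have h1 : v ∈ B.orthogonal (B.orthogonal (C j)) := by
      rw [← hC.perp j (by omega), mem_perp' ha]
      exact hcon
    rwa [LinearMap.BilinForm.orthogonal_orthogonal hnd (refl ha)] at h1
  obtain ⟨g, hg, hg'⟩ := eM_triv (ρ := ρ) ha hC hall (by omega) hy hw
  have h1 := hv g hg
  rw [hg', hvy, zero_smul, add_zero, add_sub_cancel_left] at h1
  apply hyc
  have h2 := c.smul_mem (B v w)⁻¹ h1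
  rwa [smul_smul, inv_mul_cancel₀ hvw, one_smul] at h2

/-- one step of a totally isotropic flag -/
theorem iso_succ [FiniteDimensional F V] (ha : ∀ v, B v v = 0) {c L : Submodule F V} (hcL : c ≤ L)
    (hLc : L ≤ B.orthogonal c) (hc : c ≤ B.orthogonal c) (h : finrank F L = finrank F c + 1) :
    L ≤ B.orthogonal L := by
  obtain ⟨v0, hv0, hs⟩ := exists_gen hcL h
  intro w hw
  rw [mem_perp]
  intro v hv
  obtain ⟨a, hx⟩ := hs v hv
  obtain ⟨b, hy⟩ := hs w hw
  have e1 : v = (v - a • v0) + a • v0 := by rw [sub_add_cancel]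
  have e2 : w = (w - b • v0) + b • v0 := by rw [sub_add_cancel]
  have h1 : B (v - a • v0) (w - b • v0) = 0 := hc hy _ hx
  have h2 : B (v - a • v0) v0 = 0 := hLc hv0 _ hx
  have h3 : B v0 (w - b • v0) = 0 := by
    rw [skew ha, hLc hv0 _ hy, neg_zero]
  rw [e1, e2]
  simp only [map_add, LinearMap.add_apply, map_smul, LinearMap.smul_apply, h1, h2, h3, ha, smul_zero, add_zero]

/-- **The abstract version.** -/
theorem no_exact {p : ℕ} [Fact p.Prime] [CharP F p] (hp2 : p ≠ 2) [Finite F] [FiniteDimensional F V] [Finite K]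
    (hρ : Function.Injective ρ) (ha : ∀ v, B v v = 0) (hnd : B.Nondegenerate)
    (hiso : ∀ (g : K) (u v : V), B (ρ g u) (ρ g v) = B u v)
    (hall : ∀ z : Module.End F V, (∀ u v, B (z u) (z v) = B u v) → ∃ g : K, ∀ v, ρ g v = z v)
    (hdim : 6 ≤ finrank F V) (P H : Subgroup K)
    (hPH : ∀ g : K, ∃ a ∈ P, ∃ b ∈ H, g = a * b) (hH : ¬ p ∣ Nat.card H)
    {U : Subgroup K} (hU : IsPGroup p U) (hmax : ∀ X : Subgroup K, IsPGroup p X → U ≤ X → X = U)
    (hPU : ∀ g ∈ P, ∀ u ∈ U, g * u * g⁻¹ ∈ U) : False := by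
  classical
  have hfr : ∀ W : Submodule F V, finrank F (B.orthogonal W) = finrank F V - finrank F W :=
    LinearMap.BilinForm.finrank_orthogonal hnd
  -- `perp` is invariant
  have hperp : ∀ c : Submodule F V, (∀ u ∈ U, ∀ v ∈ c, ρ u v ∈ c) → ∀ u ∈ U, ∀ v ∈ B.orthogonal c,
      ρ u v ∈ B.orthogonal c := by
    intro c hc u hu v hv
    rw [mem_perp] at hv ⊢
    intro x hx
    have h1 := hiso u (ρ u⁻¹ x) v
    have h2 : ρ u (ρ u⁻¹ x) = x := by
      rw [← LinearEquiv.mul_apply, ← map_mul, mul_inv_cancel, map_one]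
      rfl
    rw [h2] at h1
    rw [h1]
    exact hv _ (hc _ (U.inv_mem hu) x hx)
  have htop : ∀ u ∈ U, ∀ v ∈ (⊤ : Submodule F V), ρ u v ∈ (⊤ : Submodule F V) := fun _ _ _ _ => Submodule.mem_top
  have hbot : ∀ u ∈ U, ∀ v ∈ (⊥ : Submodule F V), ρ u v ∈ (⊥ : Submodule F V) := by
    intro u _ v hv
    rw [Submodule.mem_bot] at hv ⊢
    rw [hv, map_zero]
  -- the flag
  obtain ⟨c0, -, -, hc0, hUc⟩ := exists_succ hU (c := ⊥) (M := ⊤) (by
    rw [bot_lt_iff_ne_bot]
    intro h
    have h1 : finrank F (⊤ : Submodule F V) = finrank F (⊥ : Submodule F V) := by rw [h]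
    rw [finrank_top, finrank_bot] at h1
    omega) hbot htop
  rw [finrank_bot, zero_add] at hc0
  have ic : c0 ≤ B.orthogonal c0 :=
    iso_succ ha (c := ⊥) bot_le (fun v _ => by
      rw [mem_perp]
      intro x hx
      rw [(Submodule.mem_bot F).mp hx, map_zero]; rfl) bot_le (by rw [finrank_bot, hc0])
  obtain ⟨L0, hcL, hLc, hL0, hUL⟩ := exists_succ hU (c := c0) (M := B.orthogonal c0) (by
    refine lt_of_le_of_ne ic fun h => ?_
    have h1 := hfr c0
    rw [← h, hc0] at h1
    omega) hUc (hperp _ hUc)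
  rw [hc0] at hL0
  have iL : L0 ≤ B.orthogonal L0 := iso_succ ha hcL hLc ic (by rw [hL0, hc0])
  obtain ⟨W0, hLW, hWL, hW0, hUW⟩ := exists_succ hU (c := L0) (M := B.orthogonal L0) (by
    refine lt_of_le_of_ne iL fun h => ?_
    have h1 := hfr L0
    rw [← h, hL0] at h1
    omega) hUL (hperp _ hUL)
  rw [hL0] at hW0
  have iW : W0 ≤ B.orthogonal W0 := iso_succ ha hLW hWL iL (by rw [hW0, hL0])
  -- the chain
  let C : ℕ → Submodule F V := fun i =>
    match i with
    | 0 => ⊥
    | 1 => c0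
    | 2 => L0
    | 3 => W0
    | 4 => B.orthogonal W0
    | 5 => B.orthogonal L0
    | 6 => B.orthogonal c0
    | _ => ⊤
  have oo : ∀ W : Submodule F V, B.orthogonal (B.orthogonal W) = W :=
    LinearMap.BilinForm.orthogonal_orthogonal hnd (refl ha)
  have ob : B.orthogonal (⊥ : Submodule F V) = ⊤ := by
    rw [eq_top_iff]
    intro v _
    rw [mem_perp]
    intro x hx
    rw [(Submodule.mem_bot F).mp hx, map_zero]; rfl
  have ot : B.orthogonal (⊤ : Submodule F V) = ⊥ := by rw [← ob, oo]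
  have hC : SD B C := by
    refine ⟨monotone_nat_of_le_succ fun i => ?_, rfl, fun j hj => ?_⟩
    · match i with
      | 0 => exact bot_le
      | 1 => exact hcL
      | 2 => exact hLW
      | 3 => exact iW
      | 4 => exact LinearMap.BilinForm.orthogonal_le hLW
      | 5 => exact LinearMap.BilinForm.orthogonal_le hcL
      | 6 => exact le_top
      | (n + 7) => exact le_top
    · match j with
      | 0 => exact ob.symm
      | 1 => rfl
      | 2 => rfl
      | 3 => rfl
      | 4 => exact (oo W0).symm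
      | 5 => exact (oo L0).symm
      | 6 => exact (oo c0).symm
      | 7 => exact ot.symm
      | (n + 8) => omega
  have hUC : ∀ u ∈ U, ∀ i, ∀ v ∈ C i, ρ u v ∈ C i := by
    intro u hu i
    match i with
    | 0 => exact hbot u hu
    | 1 => exact hUc u hu
    | 2 => exact hUL u hu
    | 3 => exact hUW u hu
    | 4 => exact hperp _ hUW u hu
    | 5 => exact hperp _ hUL u hu
    | 6 => exact hperp _ hUc u hu
    | (n + 7) => exact htop u hu
  have hex : ∀ c L : Submodule F V, finrank F c < finrank F L → ∃ y ∈ L, y ∉ c := by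
    intro c L h
    by_contra hcon
    push Not at hcon
    have h1 : finrank F L ≤ finrank F c := Submodule.finrank_mono fun v hv => hcon v hv
    omega
  have q : ∀ j ≤ 3, ∀ c : Submodule F V, finrank F c < finrank F (C j) →
      ∀ v, (∀ g ∈ triv ρ C, ρ g v - v ∈ c) → v ∈ C j := by
    intro j hj c hc v hv
    obtain ⟨y, hy, hyc⟩ := hex c (C j) hc
    exact mem_of_triv ha hnd hC hall hj hy hyc hv
  refine false_of_sylow hp2 hρ P H hPH hH hU hmax hPU hc0 hL0 hW0 hcL hLW hUc hUL hUW (C := C) (n := 7) rfl rfl hUC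
    (fun v hv => q 1 (by omega) ⊥ (by rw [finrank_bot]; change 0 < finrank F c0; omega) v fun g hg => by
      rw [hv g hg, sub_self]; exact Submodule.zero_mem _)
    (q 2 (by omega) c0 (by change _ < finrank F L0; omega)) (q 3 (by omega) L0 (by change _ < finrank F W0; omega)) ?_
  intro c L hc hL hcL' hLW'
  refine htr_of_transvections ρ hc0 hL0 hcL hLW (fun φ x hx hφx => ?_) c L hc hL hcL' hLW'
  obtain ⟨y, hy⟩ : ∃ y, ∀ v, φ v = B v y := by
    refine ⟨-((B.toDual hnd).symm φ), fun v => ?_⟩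
    have h1 := LinearMap.BilinForm.apply_toDual_symm_apply (hB := hnd) φ v
    rw [← h1, skew ha v, map_neg, LinearMap.neg_apply, neg_neg]
  obtain ⟨g, hg⟩ := hall (eM B x y) (eM_iso ha (by rw [← hy, hφx]))
  refine ⟨g, fun v hv => ?_⟩
  rw [hg, eM_apply, hy, (mem_perp' ha).mp (iW hv) x hx, zero_smul, add_zero]

end form

section psp

open Cfsg.Agent.H170.HL Cfsg.Agent.H170.HL.SpRow Matrix Cfsg.Agent.H167.OP

variable {F : Type*} [Field F] {m : ℕ}

/-- the natural module as a group of linear equivalences -/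
noncomputable def spRep (m : ℕ) (F : Type*) [Field F] :
    symplecticGroup (Fin m) F →* ((Fin m ⊕ Fin m → F) ≃ₗ[F] (Fin m ⊕ Fin m → F)) :=
  (LinearMap.GeneralLinearGroup.generalLinearEquiv F (Fin m ⊕ Fin m → F)).toMonoidHom.comp
    (Representation.asGroupHom (rep (inc m F)))

theorem spRep_apply (A : symplecticGroup (Fin m) F) (v : Fin m ⊕ Fin m → F) :
    spRep m F A v = rep (inc m F) A v := rfl

theorem psp_no_exact [Fintype F] {p : ℕ} [Fact p.Prime] [CharP F p] (hp2 : p ≠ 2) (hm : 3 ≤ m)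
    (P H : Subgroup (Cfsg.PSp m F)) (hPH : ∀ g, ∃ a ∈ P, ∃ b ∈ H, g = a * b) (T : Sylow p (Cfsg.PSp m F))
    (hT : P ≤ normalizer ((T : Subgroup (Cfsg.PSp m F)) : Set (Cfsg.PSp m F))) (hH : ¬ p ∣ Nat.card H) : False := by
  classical
  have hfin : Finite (symplecticGroup (Fin m) F) := inferInstance
  have h2 : (2 : F) ≠ 0 := by
    intro h
    have h1 : ((2 : ℕ) : F) = 0 := by exact_mod_cast h
    rw [CharP.cast_eq_zero_iff F p] at h1
    exact hp2 ((Nat.prime_dvd_prime_iff_eq (Fact.out : p.Prime) Nat.prime_two).mp h1)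
  let f : symplecticGroup (Fin m) F →* Cfsg.PSp m F :=
    QuotientGroup.mk' (Subgroup.center (symplecticGroup (Fin m) F))
  have hf : Function.Surjective f := QuotientGroup.mk'_surjective _
  have hfk : ∀ z, f z = 1 ↔ z ∈ Subgroup.center (symplecticGroup (Fin m) F) := fun z => by
    rw [← QuotientGroup.eq_one_iff]
    rfl
  have hker : ∀ z, f z = 1 → ∀ x, z * x = x * z := fun z hz x =>
    (Subgroup.mem_center_iff.mp ((hfk z).mp hz) x).symm
  have hkp : ¬ p ∣ Nat.card f.ker := by
    intro h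
    obtain ⟨z, hz⟩ := exists_prime_orderOf_dvd_card' p h
    have h1 := Cfsg.Agent.ClassicalGeometry.SympInvolutions.center_eq ((hfk z).mp z.2)
    have h3 : z ^ 2 = 1 := by
      apply Subtype.ext
      apply Subtype.ext
      rw [pow_two]
      show ((z : symplecticGroup (Fin m) F) : Matrix (Fin m ⊕ Fin m) (Fin m ⊕ Fin m) F) *
        ((z : symplecticGroup (Fin m) F) : Matrix (Fin m ⊕ Fin m) (Fin m ⊕ Fin m) F) = 1
      rcases h1 with h | h
      · rw [h, one_mul]
      · rw [h, neg_mul_neg, one_mul]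
    have h4 := orderOf_dvd_of_pow_eq_one h3
    rw [hz] at h4
    exact hp2 ((Nat.prime_dvd_prime_iff_eq (Fact.out : p.Prime) Nat.prime_two).mp h4)
  obtain ⟨P', H', U, h1, h3, h4, -, -, -⟩ := exists_lift f hf hker hkp hPH hH T hT
  have ha : ∀ v, frm m F v v = 0 := by
    intro v
    have h5 := frm_sym (F := F) (m := m) v v
    have h6 : (2 : F) * frm m F v v = 0 := by linear_combination h5
    exact (mul_eq_zero.mp h6).resolve_left h2
  have hnd : LinearMap.BilinForm.Nondegenerate (frm m F : LinearMap.BilinForm F (Fin m ⊕ Fin m → F)) := by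
    refine ⟨fun x hx => frm_nondeg x fun y => ?_, fun x hx => frm_nondeg x hx⟩
    rw [frm_sym, hx y, mul_zero]
  refine no_exact (ρ := spRep m F) (B := frm m F) hp2 ?_ ha hnd (fun g u v => frm_iso g u v) (fun z hz => ?_) ?_
    P' H' h1 h3 U.isPGroup' (fun X hX hUX => U.is_maximal' hX hUX) h4
  · intro a b hab
    refine rep_injective (inc_injective (m := m) (F := F)) ?_
    apply LinearMap.ext
    intro v
    rw [← spRep_apply, ← spRep_apply, hab]
  · obtain ⟨A, hA⟩ := exists_of_iso z hz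
    exact ⟨A, fun v => by rw [spRep_apply, hA]⟩
  · rw [Module.finrank_fintype_fun_eq_card, Fintype.card_sum, Fintype.card_fin]
    omega

end psp

end Cfsg.Agent.H855.DP
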