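import Cfsg.Agent.H506.DPL.Defs

/-!
# S4247 [L], `StPPart`: the `p`-part of `C_S(P)` (helper855)
-/

set_option autoImplicit false
set_option linter.unusedSectionVars false

namespace Cfsg.Agent.H855.DP

open Module Matrix Cfsg Cfsg.Agent.H167.OP Cfsg.Agent.H170.HL Cfsg.Agent.H556.HallRowAbs Cfsg.Agent.H553.RV
open Cfsg.Agent.H506.DPL

section arith

theorem prod_eq (q n : ℕ) : ∏ i : Fin n, (q ^ n - q ^ (i : ℕ)) =
    q ^ (n * (n - 1) / 2) * ∏ i ∈ Finset.range n, (q ^ (n - i) - 1) := by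
  rw [Fin.prod_univ_eq_prod_range (fun i => q ^ n - q ^ i) n, ← Finset.sum_range_id, ← Finset.prod_pow_eq_pow_sum,
    ← Finset.prod_mul_distrib]
  refine Finset.prod_congr rfl fun i hi => ?_
  have hi' := Finset.mem_range.1 hi
  rw [Nat.mul_sub, mul_one, ← pow_add]
  congr 2
  omega

theorem ppart_le {p q n j : ℕ} (hp : p.Prime) (hpq : p ∣ q) (hq : 1 ≤ q)
    (h : p ^ j ∣ ∏ i : Fin n, (q ^ n - q ^ (i : ℕ))) : p ^ j ≤ q ^ (n * (n - 1) / 2) := by
  rw [prod_eq q n] at h
  have h1 : Nat.Coprime (p ^ j) (∏ i ∈ Finset.range n, (q ^ (n - i) - 1)) := by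
    apply Nat.Coprime.pow_left
    apply Nat.Coprime.prod_right
    intro i hi
    rw [Nat.Prime.coprime_iff_not_dvd hp]
    intro h2
    have hi' := Finset.mem_range.1 hi
    have h3 : p ∣ q ^ (n - i) := hpq.trans (dvd_pow_self q (by omega))
    have h4 : 1 ≤ q ^ (n - i) := Nat.one_le_pow _ _ hq
    have h5 : p ∣ (q ^ (n - i) - 1) + 1 := by rwa [Nat.sub_add_cancel h4]
    exact hp.one_lt.ne' (Nat.dvd_one.1 ((Nat.dvd_add_right h2).1 h5))
  exact Nat.le_of_dvd (by positivity) (h1.dvd_of_dvd_mul_right h)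

/-- a prime `t` dividing `|GL_d(q)|`, `t ∤ q`: `ord_t(q) ≤ d` -/
theorem ord_le {t q d : ℕ} (ht : t.Prime) (htq : ¬ t ∣ q) (hq : 1 ≤ q)
    (h : t ∣ ∏ i : Fin d, (q ^ d - q ^ (i : ℕ))) : orderOf (q : ZMod t) ≤ d := by
  have := Fact.mk ht
  rw [prod_eq q d] at h
  rcases ht.dvd_mul.1 h with h | h
  · exact absurd (ht.dvd_of_dvd_pow h) htq
  · obtain ⟨i, hi, h1⟩ := (Prime.dvd_finsetProd_iff ht.prime _).1 h
    have hi' := Finset.mem_range.1 hi
    have h2 : (q : ZMod t) ^ (d - i) = 1 := by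
      have h3 : ((q ^ (d - i) - 1 : ℕ) : ZMod t) = 0 := (ZMod.natCast_eq_zero_iff _ _).2 h1
      rw [Nat.cast_sub (Nat.one_le_pow _ _ hq), Nat.cast_pow, Nat.cast_one, sub_eq_zero] at h3
      exact h3
    have h3 := Nat.le_of_dvd (by omega) (orderOf_dvd_of_pow_eq_one h2)
    omega

end arith

section res

variable {F : Type*} [Field F] {V : Type*} [AddCommGroup V] [Module F V] [FiniteDimensional F V] {Y : Type*} [Group Y]

/-- restriction to an invariant subspace -/
theorem exists_res (ρ : Representation F Y V) (H : Subgroup Y) (U : Submodule F V)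
    (hU : ∀ h ∈ H, ∀ u ∈ U, ρ h u ∈ U) :
    ∃ ψ : H →* GL (Fin (finrank F U)) F, ∀ h : H, ψ h = 1 → ∀ u ∈ U, ρ h u = u := by
  classical
  let b := Module.finBasis F U
  let r : H →* Module.End F U :=
    { toFun := fun h => (ρ h).restrict (fun u hu => hU h h.2 u hu)
      map_one' := by
        apply LinearMap.ext
        intro u
        apply Subtype.ext
        rw [LinearMap.coe_restrict_apply, Subgroup.coe_one, map_one]
        rfl
      map_mul' := fun a c => by
        apply LinearMap.ext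
        intro u
        apply Subtype.ext
        rw [LinearMap.coe_restrict_apply, Subgroup.coe_mul, map_mul]
        rfl }
  let ψ0 : H →* Matrix (Fin (finrank F U)) (Fin (finrank F U)) F :=
    ((LinearMap.toMatrixAlgEquiv b : Module.End F U ≃ₐ[F] _) : Module.End F U →* _).comp r
  refine ⟨ψ0.toHomUnits, fun h hh u hu => ?_⟩
  have h1 : ψ0 h = 1 := congrArg Units.val hh
  have h2 : r h = 1 := by
    apply (LinearMap.toMatrixAlgEquiv b).injective
    rw [map_one]
    exact h1
  have h3 := LinearMap.congr_fun h2 ⟨u, hu⟩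
  exact congrArg Subtype.val h3

/-- a non-trivial element of prime order `t` needs dimension `ord_t(q)` -/
theorem ord_le_finrank [Fintype F] (ρ : Representation F Y V) {t : ℕ} (ht : t.Prime) (htq : ¬ t ∣ Fintype.card F)
    {y : Y} (hy : y ^ t = 1) {U : Submodule F V} (hU : ∀ u ∈ U, ρ y u ∈ U) {u : V} (hu : u ∈ U) (huy : ρ y u ≠ u) :
    orderOf (Fintype.card F : ZMod t) ≤ finrank F U := by
  classical
  have hU' : ∀ h ∈ Subgroup.zpowers y, ∀ u ∈ U, ρ h u ∈ U := by
    intro h hh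
    have h1 : h ∈ Submonoid.powers y := by
      have : IsOfFinOrder y := isOfFinOrder_iff_pow_eq_one.2 ⟨t, ht.pos, hy⟩
      rwa [← this.mem_powers_iff_mem_zpowers] at hh
    obtain ⟨k, rfl⟩ := h1
    intro u hu
    show ρ (y ^ k) u ∈ U
    induction k with
    | zero => rw [pow_zero, map_one]; exact hu
    | succ k ih =>
      rw [pow_succ', map_mul]
      exact hU _ (ih (by
        exact ⟨k, by simp⟩))
  obtain ⟨ψ, hψ⟩ := exists_res ρ (Subgroup.zpowers y) U hU'
  apply ord_le ht htq Fintype.card_pos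
  rw [← Matrix.card_GL_field]
  let y' : Subgroup.zpowers y := ⟨y, Subgroup.mem_zpowers y⟩
  have h1 : ψ y' ≠ 1 := fun h => huy (hψ y' h u hu)
  have h2 : ψ y' ^ t = 1 := by
    rw [← map_pow]
    have : y' ^ t = 1 := Subtype.ext hy
    rw [this, map_one]
  have := Fact.mk ht
  have h3 : orderOf (ψ y') = t := orderOf_eq_prime h2 h1
  rw [← h3]
  exact orderOf_dvd_natCard _

/-- an operator of `p`-power order in characteristic `p` has a fixed vector on a non-zero invariant subspace -/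
theorem exists_fix {p : ℕ} (hp : p.Prime) [CharP F p] (s : Module.End F V) {k : ℕ} (hs : s ^ (p ^ k) = 1)
    {W : Submodule F V} (hW : ∀ w ∈ W, s w ∈ W) (hne : W ≠ ⊥) : ∃ w ∈ W, w ≠ 0 ∧ s w = w := by
  classical
  have hpf := Fact.mk hp
  obtain ⟨w, hw, hw0⟩ := Submodule.exists_mem_ne_zero_of_ne_bot hne
  have hchar : CharP (Module.End F V) p := by
    have hV : Nontrivial V := ⟨⟨w, 0, hw0⟩⟩
    exact charP_of_injective_algebraMap (algebraMap F (Module.End F V)).injective p
  have h1 : (s - 1) ^ (p ^ k) = 0 := by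
    rw [sub_pow_char_pow_of_commute p k (Commute.one_right s), hs, one_pow, sub_self]
  have hex : ∃ l : ℕ, ((s - 1) ^ l) w = 0 := ⟨p ^ k, by rw [h1]; rfl⟩
  have h2 : ((s - 1) ^ (Nat.find hex)) w = 0 := Nat.find_spec hex
  have h3 : Nat.find hex ≠ 0 := by
    intro h
    rw [h, pow_zero] at h2
    exact hw0 h2
  obtain ⟨l, hl⟩ := Nat.exists_eq_succ_of_ne_zero h3
  have h4 : ((s - 1) ^ l) w ≠ 0 := Nat.find_min hex (by omega)
  have h5 : ∀ l : ℕ, ((s - 1) ^ l) w ∈ W := by
    intro l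
    induction l with
    | zero => exact hw
    | succ l ih =>
      rw [pow_succ', Module.End.mul_apply, LinearMap.sub_apply]
      exact W.sub_mem (hW _ ih) ih
  refine ⟨_, h5 l, h4, ?_⟩
  rw [hl, Nat.succ_eq_add_one, pow_succ', Module.End.mul_apply, LinearMap.sub_apply, sub_eq_zero] at h2
  exact h2

end res

section main

variable {F : Type} [Field F] {n : ℕ}

/-- the permutation of a matrix of determinant one -/
noncomputable def kp (s : SpecialLinearGroup (Fin n) F) : Equiv.Perm (Fin n → F) where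
  toFun v := s.1 *ᵥ v
  invFun v := (s⁻¹).1 *ᵥ v
  left_inv v := by
    have h1 : (s⁻¹).1 * s.1 = 1 := congrArg Subtype.val (inv_mul_cancel s)
    show (s⁻¹).1 *ᵥ (s.1 *ᵥ v) = v
    rw [Matrix.mulVec_mulVec, h1, Matrix.one_mulVec]
  right_inv v := by
    have h1 : s.1 * (s⁻¹).1 = 1 := congrArg Subtype.val (mul_inv_cancel s)
    show s.1 *ᵥ ((s⁻¹).1 *ᵥ v) = v
    rw [Matrix.mulVec_mulVec, h1, Matrix.one_mulVec]

theorem kp_apply (s : SpecialLinearGroup (Fin n) F) (v : Fin n → F) : kp s v = s.1 *ᵥ v := rfl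

theorem kp_mem (s : SpecialLinearGroup (Fin n) F) : kp s ∈ GamL F n := by
  refine ⟨fun v w => ?_, RingEquiv.refl F, fun c v => ?_⟩
  · rw [kp_apply, kp_apply, kp_apply, Matrix.mulVec_add]
  · rw [kp_apply, kp_apply, Matrix.mulVec_smul]
    rfl

theorem kp_ind (s : SpecialLinearGroup (Fin n) F) :
    Ind (kp s) (MulAut.conj (QuotientGroup.mk s : ProjectiveSpecialLinearGroup (Fin n) F)) := by
  intro a b hab
  have h1 : s * a = b * s := by
    apply Subtype.ext
    apply Matrix.ext_of_mulVec_single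
    intro i
    show (s.1 * a.1) *ᵥ _ = (b.1 * s.1) *ᵥ _
    rw [← Matrix.mulVec_mulVec, ← Matrix.mulVec_mulVec]
    exact hab _
  rw [MulAut.conj_apply, ← QuotientGroup.mk_mul, h1, QuotientGroup.mk_mul, mul_inv_cancel_right]

theorem st_ppart (hc : StCen) (hd : StDec) : StPPart := by
  classical
  intro π p F _ _ _ n P P' t m f hp hpi hn hL hf K' hK' j hj
  have hpf := Fact.mk hp
  have ht := hf.prime
  have htp : t ≠ p := fun e => hpi (e ▸ hf.mem)
  obtain ⟨a, -, hq⟩ := FiniteField.card F p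
  have htq : ¬ t ∣ Fintype.card F := by
    rw [hq]
    intro h
    exact htp ((Nat.prime_dvd_prime_iff_eq ht hp).1 (ht.dvd_of_dvd_pow h))
  have htF : (t : F) ≠ 0 := by
    intro h
    rw [CharP.cast_eq_zero_iff F p] at h
    exact htp ((Nat.prime_dvd_prime_iff_eq hp ht).1 h).symm
  obtain ⟨-, -, -, hdec, -⟩ := hd π p F n P' t m f hp hpi hf
  -- elements of `p`-power order over `K'`
  have key : ∀ s : SpecialLinearGroup (Fin n) F,
      (QuotientGroup.mk s : ProjectiveSpecialLinearGroup (Fin n) F) ∈ K' → (∃ k : ℕ, s ^ (p ^ k) = 1) →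
      (∀ i, ∀ w ∈ Rg (rg F n) (f i), rg F n (toU s) w = w) ∧ (∀ v ∈ V0 f, rg F n (toU s) v ∈ V0 f) := by
    rintro s hsK ⟨k, hsk⟩
    obtain ⟨h1, h2, h3⟩ := hc π p F n P P' t m f hp hpi hn hL hf (kp s)
      (MulAut.conj (QuotientGroup.mk s : ProjectiveSpecialLinearGroup (Fin n) F)) (kp_mem s) (kp_ind s) (by
        intro x hx
        rw [MulAut.conj_apply, ← hK' x hx _ hsK, mul_inv_cancel_right])
    refine ⟨?_, h2⟩
    intro i
    have hWi : ∀ w ∈ Rg (rg F n) (f i), rg F n (toU s) w ∈ Rg (rg F n) (f i) := h1 i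
    have hsk' : (rg F n (toU s)) ^ (p ^ k) = 1 := by
      rw [← map_pow, ← map_pow, hsk, map_one, map_one]
    have hfi : (f i) ^ t = 1 := (hf.fm.isZ i).1
    have hfin : finrank F (Rg (rg F n) (f i)) = eo F t := (hf.fm.isZ i).2
    let U : Submodule F (Fin n → F) := Rg (rg F n) (f i) ⊓ LinearMap.ker (rg F n (toU s) - 1)
    have hU : ∀ w, w ∈ U ↔ w ∈ Rg (rg F n) (f i) ∧ rg F n (toU s) w = w := by
      intro w
      rw [Submodule.mem_inf, LinearMap.mem_ker, LinearMap.sub_apply, sub_eq_zero]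
      exact Iff.rfl
    have hUW : U = Rg (rg F n) (f i) := by
      by_cases hW : Rg (rg F n) (f i) = ⊥
      · exact le_antisymm inf_le_left (hW ▸ bot_le)
      obtain ⟨w, hw, hw0, hsw⟩ := exists_fix hp (rg F n (toU s)) hsk' hWi hW
      have hwU : w ∈ U := (hU w).2 ⟨hw, hsw⟩
      apply Submodule.eq_of_le_of_finrank_le inf_le_left
      rw [hfin]
      rcases Nat.lt_or_ge (eo F t) 2 with he | he
      · have h4 : U ≠ ⊥ := by
          intro h
          rw [h, Submodule.mem_bot] at hwU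
          exact hw0 hwU
        have h5 : 1 ≤ finrank F U := Submodule.one_le_finrank_iff.2 h4
        have h6 : eo F t ≤ 1 := by omega
        exact h6.trans h5
      · refine ord_le_finrank (rg F n) ht htq hfi (U := U) ?_ hwU ?_
        · intro u hu
          obtain ⟨hu1, hu2⟩ := (hU u).1 hu
          refine (hU _).2 ⟨map_Rg hu1, ?_⟩
          have h4 := h3 he i u
          have h5 : rg F n (toU s) (rg F n (f i) u) = rg F n (f i) (rg F n (toU s) u) := h4
          rw [h5, hu2]
        · intro h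
          exact hw0 (eq_zero_of_fix htF hfi hw h)
    intro w hw
    rw [← hUW] at hw
    exact ((hU w).1 hw).2
  -- a `p`-subgroup of `SL_n` of order `p ^ j`
  let mk : SpecialLinearGroup (Fin n) F →* ProjectiveSpecialLinearGroup (Fin n) F := QuotientGroup.mk' _
  have hmk : Function.Surjective mk := QuotientGroup.mk'_surjective _
  have hcard : p ^ j ∣ Nat.card (K'.comap mk) := by
    refine hj.trans ?_
    let g : K'.comap mk →* K' := (mk.comp (Subgroup.subtype _)).codRestrict K' (fun s => s.2)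
    refine Subgroup.card_dvd_of_surjective g ?_
    rintro ⟨x, hx⟩
    obtain ⟨s, rfl⟩ := hmk x
    exact ⟨⟨s, hx⟩, rfl⟩
  obtain ⟨R, hR⟩ := Sylow.exists_subgroup_card_pow_prime p hcard
  let τ : K'.comap mk →* (Matrix (Fin n) (Fin n) F)ˣ := toU.comp (Subgroup.subtype _)
  have hτ : Function.Injective τ := by
    intro x y hxy
    apply Subtype.ext
    apply Subtype.ext
    exact congrArg Units.val hxy
  have hR1 : Nat.card (R.map τ) = p ^ j := by
    rw [← hR]
    exact (Nat.card_congr (R.equivMapOfInjective τ hτ).toEquiv).symm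
  have hel : ∀ h ∈ R.map τ, ∃ s : SpecialLinearGroup (Fin n) F, toU s = h ∧
      (QuotientGroup.mk s : ProjectiveSpecialLinearGroup (Fin n) F) ∈ K' ∧ ∃ k : ℕ, s ^ (p ^ k) = 1 := by
    rintro _ ⟨s, hs, rfl⟩
    refine ⟨s, rfl, s.2, j, ?_⟩
    have h1 : (⟨s, hs⟩ : R) ^ Nat.card R = 1 := pow_card_eq_one'
    rw [hR] at h1
    have h2 := congrArg (fun x : R => ((x : K'.comap mk) : SpecialLinearGroup (Fin n) F)) h1
    exact h2
  obtain ⟨ψ, hψ⟩ := exists_res (rg F n) (R.map τ) (V0 f) (by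
    intro h hh
    obtain ⟨s, rfl, h1, h2⟩ := hel h hh
    exact (key s h1 h2).2)
  have hψi : Function.Injective ψ := by
    rw [injective_iff_map_eq_one]
    rintro ⟨h, hh⟩ hh1
    have h1 := hψ ⟨h, hh⟩ hh1
    obtain ⟨s, rfl, h2, h3⟩ := hel h hh
    apply Subtype.ext
    apply rep_injective (μ := Units.coeHom (Matrix (Fin n) (Fin n) F)) (fun x y hxy => Units.ext hxy)
    apply LinearMap.ext
    intro v
    obtain ⟨v0, hv0, w, hw, rfl⟩ := hdec v
    show rg F n (toU s) _ = rg F n 1 _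
    rw [map_add, map_sum, map_one]
    congr 1
    · exact h1 v0 hv0
    · show _ = ∑ i, w i
      exact Finset.sum_congr rfl fun i _ => (key s h2 h3).1 i _ (hw i)
  apply ppart_le hp (by rw [hq]; exact dvd_pow_self p a.2.ne') Fintype.card_pos
  rw [← Matrix.card_GL_field, ← hR1]
  exact Subgroup.card_dvd_of_injective ψ hψi

end main

end Cfsg.Agent.H855.DP
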